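import Groth.Agent.Ega41.NoethNorm
import Groth.Agent.Ega41.CompKaehler
import Groth.Agent.Ega1.LimitSystem
import Mathlib.RingTheory.AdicCompletion.Completeness
import Mathlib.RingTheory.Nakayama
import Mathlib.LinearAlgebra.Dimension.Finite

/-!
# The completed module of differentials of a complete Noetherian local algebra over a field

`k` a field, `A` a Noetherian local `k`-algebra with residue field finite over `k`; the completion of
`Ω[A⁄k]` for the topology of the maximal ideal.
-/

set_option autoImplicit false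

universe u v

open IsLocalRing KaehlerDifferential TensorProduct

namespace Groth.Agent.Ega4late.H539.OmegaHat

section artin

variable (k A : Type u) [Field k] [CommRing A] [IsLocalRing A] [IsNoetherianRing A] [Algebra k A]
  [Module.Finite k (ResidueField A)]

/-- The quotients `A / m ^ n` are finite-dimensional over `k`. -/
theorem finite_quotient_pow (n : ℕ) : Module.Finite k (A ⧸ maximalIdeal A ^ n) := by
  by_cases hn : n = 0
  · subst hn
    have : Subsingleton (A ⧸ maximalIdeal A ^ 0) := by
      rw [pow_zero, Ideal.one_eq_top]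
      exact Ideal.Quotient.subsingleton_iff.mpr rfl
    infer_instance
  set J : Ideal A := maximalIdeal A ^ n with hJ
  have hJm : J ≤ maximalIdeal A := Ideal.pow_le_self hn
  have hJtop : J ≠ ⊤ := fun h ↦ (maximalIdeal.isMaximal A).ne_top (top_le_iff.mp (h ▸ hJm))
  have : Nontrivial (A ⧸ J) := Ideal.Quotient.nontrivial_iff.mpr hJtop
  have : IsLocalRing (A ⧸ J) :=
    IsLocalRing.of_surjective' (Ideal.Quotient.mk J) Ideal.Quotient.mk_surjective
  have hloc : IsLocalHom (Ideal.Quotient.mk J) :=
    IsLocalHom.of_surjective _ Ideal.Quotient.mk_surjective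
  have hart : IsArtinianRing (A ⧸ J) := by
    rw [isArtinianRing_iff_isNilpotent_maximalIdeal]
    refine ⟨n, ?_⟩
    have h1 : maximalIdeal (A ⧸ J) ≤ (maximalIdeal A).map (Ideal.Quotient.mk J) := by
      intro y hy
      obtain ⟨a, rfl⟩ := Ideal.Quotient.mk_surjective y
      refine Ideal.mem_map_of_mem _ ?_
      rw [mem_maximalIdeal, mem_nonunits_iff] at hy ⊢
      exact fun h => hy (h.map _)
    have h2 : maximalIdeal (A ⧸ J) ^ n ≤ ((maximalIdeal A) ^ n).map (Ideal.Quotient.mk J) := by
      rw [Ideal.map_pow]
      exact Ideal.pow_right_mono h1 n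
    rw [← hJ, Ideal.map_quotient_self] at h2
    exact le_bot_iff.mp h2
  have hfin0 : Module.Finite k (ResidueField (A ⧸ J)) := by
    let φ : ResidueField A →ₐ[k] ResidueField (A ⧸ J) :=
      { ResidueField.map (Ideal.Quotient.mk J) with
        commutes' := fun r ↦ rfl }
    have hφ : Function.Surjective φ := by
      intro y
      obtain ⟨b, rfl⟩ := residue_surjective y
      obtain ⟨a, rfl⟩ := Ideal.Quotient.mk_surjective b
      exact ⟨residue A a, rfl⟩
    exact Module.Finite.of_surjective φ.toLinearMap hφ
  exact Ega41.NoethNorm.finite_of_isArtinianRing hfin0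

/-- There is a finite family in `A` spanning `A / m ^ n` over `k`. -/
theorem exists_fin_span (n : ℕ) : ∃ (s : ℕ) (a : Fin s → A),
    ∀ x : A, ∃ c : Fin s → k, x - ∑ i, algebraMap k A (c i) * a i ∈ maximalIdeal A ^ n := by
  have := finite_quotient_pow k A n
  obtain ⟨s, b, hb⟩ := Module.Finite.exists_fin (R := k) (M := A ⧸ maximalIdeal A ^ n)
  choose a ha using fun i ↦ Ideal.Quotient.mk_surjective (b i)
  refine ⟨s, a, fun x => ?_⟩
  have h1 : Ideal.Quotient.mk (maximalIdeal A ^ n) x ∈ Submodule.span k (Set.range b) := by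
    rw [hb]; trivial
  obtain ⟨c, hc⟩ := (Submodule.mem_span_range_iff_exists_fun k).mp h1
  refine ⟨c, ?_⟩
  rw [← Ideal.Quotient.eq, ← hc, map_sum]
  refine Finset.sum_congr rfl fun i _ => ?_
  rw [map_mul, ha, Algebra.smul_def]
  rfl

end artin

section omega

variable (k A : Type u) [Field k] [CommRing A] [IsLocalRing A] [IsNoetherianRing A] [Algebra k A]

/-- The completed module of differentials. -/
abbrev OmHat : Type u := AdicCompletion (maximalIdeal A) (Ω[A⁄k])

/-- The completed universal derivation. -/
noncomputable def dHat : Derivation k A (OmHat k A) :=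
  (AdicCompletion.of (maximalIdeal A) (Ω[A⁄k])).compDer (D k A)

omit [IsNoetherianRing A] in
theorem dHat_apply (a : A) : dHat k A a = AdicCompletion.of (maximalIdeal A) (Ω[A⁄k]) (D k A a) := rfl

/-- The images of finitely many differentials span `Ω[A⁄k]` modulo `m Ω[A⁄k]`. -/
theorem exists_fin_span_omega [Module.Finite k (ResidueField A)] : ∃ (s : ℕ) (a : Fin s → A),
    Submodule.span A (Set.range fun i => D k A (a i)) ⊔ (maximalIdeal A • ⊤ : Submodule A (Ω[A⁄k])) = ⊤ := by
  obtain ⟨s, a, ha⟩ := exists_fin_span k A 2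
  refine ⟨s, a, ?_⟩
  refine eq_top_iff.mpr ((KaehlerDifferential.span_range_derivation k A).ge.trans ?_)
  rw [Submodule.span_le]
  rintro _ ⟨x, rfl⟩
  obtain ⟨c, hc⟩ := ha x
  have h1 : x = (∑ i, algebraMap k A (c i) * a i) + (x - ∑ i, algebraMap k A (c i) * a i) := by ring
  rw [h1, map_add, map_sum]
  refine Submodule.add_mem_sup (Submodule.sum_mem _ fun i _ => ?_) ?_
  · rw [Derivation.leibniz, Derivation.map_algebraMap, smul_zero, add_zero]
    exact Submodule.smul_mem _ _ (Submodule.subset_span ⟨i, rfl⟩)
  · have := Ega41.CompKaehler.derivation_mem_pow_smul (maximalIdeal A) (D k A) 1 _ hc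
    rwa [pow_one] at this

omit [IsLocalRing A] [IsNoetherianRing A] in
/-- For every `n`, the family of `exists_fin_span_omega` spans modulo `m ^ n`, by iteration. -/
theorem sup_pow_smul_eq_top {M : Type v} [AddCommGroup M] [Module A M] (I : Ideal A) (N : Submodule A M)
    (h : N ⊔ (I • ⊤ : Submodule A M) = ⊤) (n : ℕ) : N ⊔ (I ^ n • ⊤ : Submodule A M) = ⊤ := by
  induction n with
  | zero => simp
  | succ n ih =>
    have h1 : (I ^ n • (N ⊔ (I • ⊤ : Submodule A M)) : Submodule A M) ≤
        N ⊔ (I ^ (n + 1) • ⊤ : Submodule A M) := by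
      rw [Submodule.smul_sup, ← Submodule.mul_smul, ← pow_succ]
      exact sup_le_sup Submodule.smul_le_right le_rfl
    rw [h] at h1
    exact eq_top_iff.mpr (ih.ge.trans (sup_le le_sup_left h1))

theorem eval_one_ker (M : Type v) [AddCommGroup M] [Module A M] :
    (maximalIdeal A • ⊤ : Submodule A (AdicCompletion (maximalIdeal A) M)) =
      LinearMap.ker (AdicCompletion.eval (maximalIdeal A) M 1) := by
  have := AdicCompletion.pow_smul_top_eq_ker_eval (M := M) (n := 1)
    (IsNoetherian.noetherian (maximalIdeal A))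
  rw [← this, pow_one]

variable [IsAdicComplete (maximalIdeal A) A] [Module.Finite k (ResidueField A)]

/-- The completed module of differentials is a finite `A`-module. -/
instance finite_omHat : Module.Finite A (OmHat k A) := by
  obtain ⟨s, a, ha⟩ := exists_fin_span_omega k A
  apply Ega1.LimitSystem.finite_of_finite_quotient (I := maximalIdeal A)
  -- the quotient is `Ω / m Ω`
  have h1 : Module.Finite A ((Ω[A⁄k]) ⧸ (maximalIdeal A ^ 1 • ⊤ : Submodule A (Ω[A⁄k]))) := by
    rw [pow_one]
    let N := Submodule.span A (Set.range fun i => D k A (a i))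
    let f : N →ₗ[A] (Ω[A⁄k]) ⧸ (maximalIdeal A • ⊤ : Submodule A (Ω[A⁄k])) :=
      (maximalIdeal A • ⊤ : Submodule A (Ω[A⁄k])).mkQ ∘ₗ N.subtype
    have hf : Function.Surjective f := by
      intro y
      obtain ⟨x, rfl⟩ := Submodule.mkQ_surjective _ y
      have hx : x ∈ N ⊔ (maximalIdeal A • ⊤ : Submodule A (Ω[A⁄k])) := by rw [ha]; trivial
      obtain ⟨z, hz, w, hw, rfl⟩ := Submodule.mem_sup.mp hx
      refine ⟨⟨z, hz⟩, ?_⟩
      change (maximalIdeal A • ⊤ : Submodule A (Ω[A⁄k])).mkQ z = _
      rw [map_add]
      have : (maximalIdeal A • ⊤ : Submodule A (Ω[A⁄k])).mkQ w = 0 := by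
        rw [Submodule.mkQ_apply, Submodule.Quotient.mk_eq_zero]; exact hw
      rw [this, add_zero]
    have : Module.Finite A N := Module.Finite.span_of_finite A (Set.finite_range _)
    exact Module.Finite.of_surjective f hf
  rw [eval_one_ker]
  exact Module.Finite.equiv
    ((AdicCompletion.eval (maximalIdeal A) (Ω[A⁄k]) 1).quotKerEquivOfSurjective
      (AdicCompletion.eval_surjective _ _ _)).symm

/-- The image of a submodule spanning `Ω / m Ω` spans the completion. -/
theorem span_of_eq_top (N : Submodule A (Ω[A⁄k]))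
    (h : N ⊔ (maximalIdeal A • ⊤ : Submodule A (Ω[A⁄k])) = ⊤) :
    N.map (AdicCompletion.of (maximalIdeal A) (Ω[A⁄k])) = ⊤ := by
  have hfin : (⊤ : Submodule A (OmHat k A)).FG := Module.Finite.fg_top
  have h1 : (⊤ : Submodule A (OmHat k A)) ≤
      N.map (AdicCompletion.of (maximalIdeal A) (Ω[A⁄k])) ⊔ maximalIdeal A • (⊤ : Submodule A (OmHat k A)) := by
    intro y _
    rw [eval_one_ker]
    obtain ⟨x, hx⟩ := Submodule.Quotient.mk_surjective _ (AdicCompletion.eval (maximalIdeal A) (Ω[A⁄k]) 1 y)
    have hx' : x ∈ N ⊔ (maximalIdeal A • ⊤ : Submodule A (Ω[A⁄k])) := by rw [h]; trivial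
    obtain ⟨z, hz, w, hw, rfl⟩ := Submodule.mem_sup.mp hx'
    have h2 : y = AdicCompletion.of (maximalIdeal A) (Ω[A⁄k]) z +
        (y - AdicCompletion.of (maximalIdeal A) (Ω[A⁄k]) z) := by abel
    rw [h2]
    refine Submodule.add_mem_sup (Submodule.mem_map_of_mem hz) ?_
    rw [LinearMap.mem_ker, map_sub, ← hx, AdicCompletion.eval_of]
    change Submodule.Quotient.mk _ - Submodule.Quotient.mk _ = _
    rw [← Submodule.Quotient.mk_sub, Submodule.Quotient.mk_eq_zero, add_sub_cancel_left, pow_one]
    exact hw
  have h3 := Submodule.le_of_le_smul_of_le_jacobson_bot hfin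
    (IsLocalRing.maximalIdeal_le_jacobson (⊥ : Ideal A)) h1
  exact top_le_iff.mp h3

/-- The differentials `d a` span the completed module of differentials. -/
theorem span_range_dHat : Submodule.span A (Set.range (dHat k A)) = ⊤ := by
  rw [← span_of_eq_top k A ⊤ (by rw [top_sup_eq]), ← KaehlerDifferential.span_range_derivation k A,
    Submodule.map_span, ← Set.range_comp]
  rfl

/-- Finitely many differentials span the completed module of differentials. -/
theorem exists_fin_span_dHat : ∃ (s : ℕ) (a : Fin s → A),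
    Submodule.span A (Set.range fun i => dHat k A (a i)) = ⊤ := by
  obtain ⟨s, a, ha⟩ := exists_fin_span_omega k A
  refine ⟨s, a, ?_⟩
  rw [← span_of_eq_top k A _ ha, Submodule.map_span, ← Set.range_comp]
  rfl

/-- If `s ∈ m` acts injectively modulo `W` and `φ (d z) ∈ W` for all `z ∈ m ^ c`, then `φ` has values in `W`.
(The differentials of the elements of `m ^ c` generate after inverting `s`.) -/
theorem forall_mem_of_forall_pow {V : Type v} [AddCommGroup V] [Module A V] (φ : OmHat k A →ₗ[A] V)
    (W : Submodule A V) (s : A) (hs : s ∈ maximalIdeal A) (hW : ∀ v, s • v ∈ W → v ∈ W) (c : ℕ)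
    (h : ∀ z ∈ maximalIdeal A ^ c, φ (dHat k A z) ∈ W) (x : OmHat k A) : φ x ∈ W := by
  have hW' : ∀ (n : ℕ) (v : V), s ^ n • v ∈ W → v ∈ W := by
    intro n
    induction n with
    | zero => intro v hv; simpa using hv
    | succ n ih =>
      intro v hv
      rw [pow_succ, mul_smul] at hv
      exact hW v (ih _ hv)
  have hsc : s ^ c ∈ maximalIdeal A ^ c := Ideal.pow_mem_pow hs c
  have key : ∀ a : A, φ (dHat k A a) ∈ W := by
    intro a
    apply hW' c
    have h1 : s ^ c • dHat k A a = dHat k A (s ^ c * a) - a • dHat k A (s ^ c) := by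
      rw [Derivation.leibniz]; abel
    rw [← map_smul, h1, map_sub, map_smul]
    exact W.sub_mem (h _ (Ideal.mul_mem_right _ _ hsc)) (W.smul_mem _ (h _ hsc))
  have h2 : (⊤ : Submodule A (OmHat k A)) ≤ W.comap φ := by
    rw [← span_range_dHat k A, Submodule.span_le]
    rintro _ ⟨a, rfl⟩
    exact key a
  exact h2 trivial

/-- Two linear maps from the completed module of differentials which agree on differentials are equal. -/
theorem hom_ext {M : Type v} [AddCommGroup M] [Module A M] {f g : OmHat k A →ₗ[A] M}
    (h : ∀ a, f (dHat k A a) = g (dHat k A a)) : f = g := by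
  refine LinearMap.ext_on (span_range_dHat k A) ?_
  rintro _ ⟨a, rfl⟩
  exact h a

end omega

section lift

variable {k A : Type u} [Field k] [CommRing A] [IsLocalRing A] [IsNoetherianRing A] [Algebra k A]
  [IsAdicComplete (maximalIdeal A) A]
variable {M : Type v} [AddCommGroup M] [Module A M] [Module k M] [IsScalarTower k A M]

/-- Derivations into a finite module extend to the completed module of differentials. -/
noncomputable def liftHat [Module.Finite A M] (δ : Derivation k A M) : OmHat k A →ₗ[A] M :=
  haveI : IsAdicComplete (maximalIdeal A) M := Ega1.LimitSystem.isAdicComplete_of_finite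
  (AdicCompletion.ofLinearEquiv (maximalIdeal A) M).symm.toLinearMap ∘ₗ
    (AdicCompletion.map (maximalIdeal A) δ.liftKaehlerDifferential).restrictScalars A

@[simp]
theorem liftHat_dHat [Module.Finite A M] (δ : Derivation k A M) (a : A) :
    liftHat δ (dHat k A a) = δ a := by
  have : IsAdicComplete (maximalIdeal A) M := Ega1.LimitSystem.isAdicComplete_of_finite
  rw [liftHat, LinearMap.comp_apply, LinearMap.restrictScalars_apply, dHat_apply,
    AdicCompletion.map_of, Derivation.liftKaehlerDifferential_comp_D]
  exact AdicCompletion.ofLinearEquiv_symm_of _ _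

/-- A derivation into an arbitrary module whose image lies in a finitely generated submodule extends to
the completed module of differentials. -/
theorem exists_lift_of_bounded (δ : Derivation k A M) (N : Submodule A M) (hN : N.FG)
    (h : ∀ a, δ a ∈ N) : ∃ f : OmHat k A →ₗ[A] M, (∀ a, f (dHat k A a) = δ a) ∧ ∀ x, f x ∈ N := by
  have : Module.Finite A N := Module.Finite.iff_fg.mpr hN
  let δ' : Derivation k A N :=
    Derivation.mk' ((δ : A →ₗ[k] M).codRestrict (N.restrictScalars k) h) (fun a b => by
      apply Subtype.ext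
      change δ (a * b) = a • δ b + b • δ a
      exact δ.leibniz a b)
  refine ⟨N.subtype ∘ₗ liftHat δ', fun a => ?_, fun x => (liftHat δ' x).2⟩
  rw [LinearMap.comp_apply, liftHat_dHat]
  rfl

/-- The lift of a derivation to the completed module of differentials is unique. -/
theorem existsUnique_lift [Module.Finite k (ResidueField A)] [Module.Finite A M] (δ : Derivation k A M) :
    ∃! f : OmHat k A →ₗ[A] M, ∀ a, f (dHat k A a) = δ a :=
  ⟨liftHat δ, liftHat_dHat δ, fun g hg => hom_ext k A fun a => by rw [hg, liftHat_dHat]⟩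

end lift

end Groth.Agent.Ega4late.H539.OmegaHat
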